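import Cfsg.Agent.Suborbit.AltDisjoint

/-!
The shape of an unfaithful point stabiliser inducing the alternating or symmetric group on a
suborbit of length at least six.
-/

set_option autoImplicit false
set_option linter.style.haveILetI false
set_option linter.unusedSectionVars false

namespace CfsgLib.Suborbit

open MulAction CfsgLib.ThompsonWielandt

variable {G Ω : Type*} [Group G] [MulAction G Ω] [Finite G] [Finite Ω] {a b : Ω} {d : ℕ}

theorem shallow_of_biCore {p q : Ω} (h : biCore (stabilizer G p) (stabilizer G q) = ⊥) :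
    Shallow G p q := by
  intro x hx hy
  rw [← Subgroup.mem_bot, ← h, biCore, mem_coreIn]
  refine ⟨core_le_stabilizer p q hx, fun k hk => ?_⟩
  have := conj_mem_core (h := k)
    (hy (k⁻¹ • q) (smul_mem_orbit ((stabilizer G p).inv_mem hk) (mem_orbit_self q)))
  rw [smul_inv_smul, mem_stabilizer_iff.1 hk, core, inf_comm] at this
  exact this

theorem shallow_or_shallow (hp : AltPair G a b d) (h6 : 6 ≤ d) (hA : IsCoatom (stabilizer G a))
    (hcore : ∀ N : Subgroup G, N.Normal → N ≤ stabilizer G a → N = ⊥)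
    (hne : stabilizer G b ≠ stabilizer G a) {g : G} (hg : g • a = b) :
    Shallow G a b ∨ Shallow G b a := by
  subst hg
  have hop : ∀ p : ℕ, p.Prime →
      opIn p (stabilizer G a ⊓ stabilizer G (g • a)) = ⊥ := by
    intro p hpp
    haveI := Fact.mk hpp
    have hle : opIn p (stabilizer G a ⊓ stabilizer G (g • a)) ≤ core G a (g • a) := by
      by_contra h
      have h5 := hp.five_le_rest h6
      have h1 := alt_le_img h5 (le_normalizer_opIn p _) (hp.alt_le_res h6)
        fun h2 => h ((img_res_eq_bot (opIn_le p _)).1 h2)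
      exact not_isPGroup_alt h5 ((((isPGroup_opIn p _).of_equiv
        (Subgroup.subgroupOfEquivOfLe (opIn_le p _)).symm).map _).to_le h1)
    rw [stabilizer_smul_eq_stabilizer_map_conj] at hne ⊢
    refine opIn_inter_eq_bot hA hcore hne p ?_
    rwa [core, stabilizer_smul_eq_stabilizer_map_conj] at hle
  have hne' := hne
  rw [stabilizer_smul_eq_stabilizer_map_conj] at hne'
  rcases thompson_wielandt hA hcore hne' with h | h | ⟨p, hpp, h1, -, -⟩
  · rw [← stabilizer_smul_eq_stabilizer_map_conj] at h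
    exact Or.inl (shallow_of_biCore h)
  · refine Or.inr (shallow_of_biCore ?_)
    have := congrArg (Subgroup.map (MulAut.conj g).toMonoidHom) h
    rwa [biCore_map, map_conj_inv_map, Subgroup.map_bot,
      ← stabilizer_smul_eq_stabilizer_map_conj] at this
  · haveI := Fact.mk hpp
    rw [← stabilizer_smul_eq_stabilizer_map_conj] at h1
    refine Or.inl (shallow_of_biCore (le_bot_iff.1 (hop p hpp ▸ le_opIn ?_ ?_ h1)))
    · exact (coreIn_le_right _ _).trans (coreIn_le_right _ _)
    · exact inf_le_left.trans (le_normalizer_coreIn _ _)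

theorem core_inf_of_shallow {p q : Ω} (hcor : Shallow G p q) :
    core G p q ⊓ ⨅ y ∈ orbit (stabilizer G p) q, core G y p = ⊥ := by
  rw [Subgroup.eq_bot_iff_forall]
  intro x hx
  simp only [Subgroup.mem_inf, Subgroup.mem_iInf] at hx
  exact hcor x hx.1 hx.2

theorem altPair_symm (hp : AltPair G a b d) (h6 : 6 ≤ d) {g : G} (hg : g • a = b)
    (hcor : Shallow G a b ∨ Shallow G b a) : AltPair G b a d := by
  classical
  subst hg
  have hd' : Nat.card (orbit (stabilizer G (g • a)) a) = d :=
    (orbit_card_symm g a).1.trans hp.card_orbit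
  refine ⟨hd', ?_⟩
  set b := g • a
  set c := g • b
  have hq : AltPair G b c d := hp.smul g
  have h5 : 5 ≤ Nat.card (orbit (stabilizer G b) c) := by rw [hq.card_orbit]; omega
  by_cases hLL : core G b a ≤ core G b c
  · exact (Nat.mul_le_mul_left _ (Subgroup.card_le_of_le hLL)).trans hq.big
  exfalso
  haveI := alt_simple h5
  set f : stabilizer G b →* Equiv.Perm (orbit (stabilizer G b) c) :=
    toPermHom (stabilizer G b) (orbit (stabilizer G b) c) with hf
  have hbot : ∀ M : Subgroup G, M = ⊥ → ¬ alt (orbit (stabilizer G b) c) ≤ img f M := by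
    intro M hM h
    refine alt_ne_bot h5 (le_bot_iff.1 (h.trans (img_eq_bot.2 fun x hx hxM => ?_).le))
    rw [hM, Subgroup.mem_bot] at hxM
    subst hxM
    exact map_one f
  have hLimg : alt (orbit (stabilizer G b) c) ≤ img f (core G b a) := by
    refine alt_le_img h5 (stabilizer_le_normalizer_core b a)
      (by rw [img_self]; exact hq.alt_le_range (by omega)) fun h => hLL fun x hx => ?_
    have h1 : (⟨x, core_le_stabilizer b a hx⟩ : stabilizer G b) ∈ f.ker :=
      img_eq_bot.1 h x _ hx
    rw [hf, ker_eq_core] at h1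
    exact h1
  rcases hcor with hc | hc
  · have hLT : core G b a ≤ stabilizer G a ⊓ stabilizer G b :=
      (core_le_inf b a).trans (le_of_eq (inf_comm _ _))
    have hLK := img_small (core_le_stabilizer b a)
      ((hLT.trans inf_le_left).trans (stabilizer_le_normalizer_core a b)) hLimg
      (hq.relIndex_lt hp.card_orbit hLT h6)
    have hfin : (orbit (stabilizer G a) b).Finite := Set.toFinite _
    refine hbot _ ?_ (img_biInf (alt_perfect h5) hfin.toFinset (fun y => core G y a) hLK
      (fun y hy => (inf_le_right.trans ((core_le_point (hfin.mem_toFinset.1 hy)).trans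
        inf_le_left)).trans (stabilizer_le_normalizer_core y a))
      (fun y hy => img_small (inf_le_left.trans (core_le_stabilizer b a))
        ((inf_le_right.trans ((core_le_point (hfin.mem_toFinset.1 hy)).trans
          inf_le_left)).trans (stabilizer_le_normalizer_core y a)) hLK
        (hq.relIndex_lt ?_ (inf_le_right.trans (core_le_point (hfin.mem_toFinset.1 hy))) h6)))
    · simp only [Set.Finite.mem_toFinset, inf_assoc, core_inf_of_shallow hc, inf_bot_eq]
    · obtain ⟨h, hha, hhb⟩ := exists_smul_of_mem_orbit (hfin.mem_toFinset.1 hy)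
      rw [← hhb]
      have := card_orbit_smul h b a
      rw [hha] at this
      exact this.trans hd'
  · have hfin : (orbit (stabilizer G b) a).Finite := Set.toFinite _
    refine hbot _ ?_ (img_biInf (alt_perfect h5) hfin.toFinset (fun y => core G y b) hLimg
      (fun y hy => ((core_le_point (hfin.mem_toFinset.1 hy)).trans inf_le_left).trans
        (stabilizer_le_normalizer_core y b))
      (fun y hy => img_small (core_le_stabilizer b a)
        (((core_le_point (hfin.mem_toFinset.1 hy)).trans
          inf_le_left).trans (stabilizer_le_normalizer_core y b)) hLimg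
        (hq.relIndex_lt ?_ (core_le_point (hfin.mem_toFinset.1 hy)) h6)))
    · simp only [Set.Finite.mem_toFinset, core_inf_of_shallow hc]
    · obtain ⟨h, hhb, hha⟩ := exists_smul_of_mem_orbit (hfin.mem_toFinset.1 hy)
      rw [← hha]
      have := card_orbit_smul h a b
      rw [hhb] at this
      exact this.trans hp.card_orbit

theorem core_le_imp_ge (hp : AltPair G a b d) (hq : AltPair G b a d) (h6 : 6 ≤ d)
    (hle : core G a b ≤ core G b a) : core G b a ≤ core G a b := by
  by_contra hge
  have hLT : core G b a ≤ stabilizer G a ⊓ stabilizer G b :=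
    (core_le_inf b a).trans (le_of_eq (inf_comm _ _))
  have hTn : stabilizer G a ⊓ stabilizer G b ≤ Subgroup.normalizer (core G b a : Set G) :=
    inf_le_right.trans (stabilizer_le_normalizer_core b a)
  have h5 := hp.five_le_rest h6
  have h5' := hq.five_le_rest h6
  have h1 := card_alt_le_relIndex h5 hLT
    (alt_le_img h5 hTn (hp.alt_le_res h6) fun h => hge ((img_res_eq_bot hLT).1 h))
  have h2 := card_alt_le_relIndex h5' le_rfl (hq.alt_le_res h6)
  have h3 := relIndex_core_le hp.card_orbit (le_refl (stabilizer G a ⊓ stabilizer G b))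
  rw [← Subgroup.relIndex_mul_relIndex _ _ _ hle hLT] at h3
  rw [inf_comm (stabilizer G b)] at h2
  have h4 := two_mul_card_alt h5
  have h4' := two_mul_card_alt h5'
  have e1 : Nat.card (Rest G a b) = d - 1 := by
    have := card_rest (G := G) a b; rw [hp.card_orbit] at this; omega
  have e2 : Nat.card (Rest G b a) = d - 1 := by
    have := card_rest (G := G) b a; rw [hq.card_orbit] at this; omega
  rw [e1] at h4
  rw [e2] at h4'
  have h7 : 120 ≤ (d - 1).factorial := Nat.factorial_le (show 5 ≤ d - 1 by omega)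
  nlinarith [Nat.mul_le_mul h1 h2]

theorem altSetting (hp : AltPair G a b d) (h6 : 6 ≤ d) (hA : IsCoatom (stabilizer G a))
    (hcore : ∀ N : Subgroup G, N.Normal → N ≤ stabilizer G a → N = ⊥)
    (hne : stabilizer G b ≠ stabilizer G a) {g : G} (hg : g • a = b)
    (hK : core G a b ≠ ⊥) : AltSetting G a b d := by
  have hq := altPair_symm hp h6 hg (shallow_or_shallow hp h6 hA hcore hne hg)
  have heq : core G a b ≠ core G b a := by
    intro h
    apply hK
    have hb : stabilizer G b = (stabilizer G a).map (MulAut.conj g).toMonoidHom := by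
      rw [← hg, stabilizer_smul_eq_stabilizer_map_conj]
    refine eq_bot_of_normalized_conj hA hcore (hb ▸ hne) (core_le_stabilizer a b)
      (stabilizer_le_normalizer_core a b) ?_
    rw [← hb, h]
    exact stabilizer_le_normalizer_core b a
  exact ⟨h6, hp, hq, fun h => heq (le_antisymm h (core_le_imp_ge hp hq h6 h)),
    fun h => heq (le_antisymm (core_le_imp_ge hq hp h6 h) h)⟩

theorem AltSetting.exists_embedding (hS : AltSetting G a b d)
    (h0 : core G a b ⊓ core G b a = ⊥) :
    ∃ Φ : stabilizer G a →* Equiv.Perm (Fin d) × Equiv.Perm (Fin (d - 1)),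
      Function.Injective Φ ∧ (∀ σ ∈ alt (Fin d), (σ, 1) ∈ Φ.range) ∧
      (∀ τ ∈ alt (Fin (d - 1)), (1, τ) ∈ Φ.range) ∧
      Nat.card ((MonoidHom.fst _ _).comp Φ).range * Nat.card (core G a b) =
        Nat.card (stabilizer G a) ∧
      Nat.card ((MonoidHom.snd _ _).comp Φ).range * Nat.card (core G b a) =
        Nat.card (stabilizer G a ⊓ stabilizer G b : Subgroup G) := by
  classical
  have h5 : 5 ≤ Nat.card (orbit (stabilizer G a) b) := by
    rw [hS.left.card_orbit]; exact (by decide : 5 ≤ 6).trans hS.six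
  have h5' := hS.right.five_le_rest hS.six
  set K := core G a b with hKdef
  set L := core G b a with hLdef
  set U : Subgroup G := stabilizer G a ⊓ Subgroup.centralizer (K : Set G) with hUdef
  set f : stabilizer G a →* Equiv.Perm (orbit (stabilizer G a) b) :=
    toPermHom (stabilizer G a) (orbit (stabilizer G a) b) with hfdef
  have hUn : stabilizer G a ≤ Subgroup.normalizer (U : Set G) := by
    refine le_normalizer_of_conj_mem fun h hh c hc => ⟨(stabilizer G a).mul_mem
      ((stabilizer G a).mul_mem hh hc.1) ((stabilizer G a).inv_mem hh), ?_⟩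
    refine Subgroup.mem_centralizer_iff.2 fun y hy => ?_
    have h1 := Subgroup.mem_centralizer_iff.1 hc.2 _
      ((Subgroup.mem_normalizer_iff''.1 (stabilizer_le_normalizer_core a b hh) y).1 hy)
    calc y * (h * c * h⁻¹) = h * (h⁻¹ * y * h * c) * h⁻¹ := by group
      _ = h * (c * (h⁻¹ * y * h)) * h⁻¹ := by rw [h1]
      _ = h * c * h⁻¹ * y := by group
  have hLU : L ≤ U := fun l hl => ⟨(core_le_inf b a hl).2,
    Subgroup.mem_centralizer_iff.2 fun k hk => by
      have hkb := (core_le_inf a b hk).2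
      have hla := (core_le_inf b a hl).2
      refine mul_inv_eq_iff_eq_mul.1 (mul_inv_eq_one.1 ?_)
      rw [← Subgroup.mem_bot, ← h0]
      refine ⟨?_, ?_⟩
      · rw [mul_assoc k l, mul_assoc]
        exact K.mul_mem hk ((Subgroup.mem_normalizer_iff.1
          (stabilizer_le_normalizer_core a b hla) _).1 (K.inv_mem hk))
      · exact L.mul_mem ((Subgroup.mem_normalizer_iff.1
          (stabilizer_le_normalizer_core b a hkb) l).1 hl) (L.inv_mem hl)⟩
  have hUT : ∀ u ∈ U, ∀ hu : u ∈ stabilizer G b ⊓ stabilizer G a, res b a ⟨u, hu⟩ = 1 := by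
    intro u huU hu
    refine eq_one_of_commute_alt h5' fun s hs => ?_
    obtain ⟨k, hkT, hk, rfl⟩ := mem_img.1 (hS.alt_le_img_kernel (mem_orbit_self b) hs)
    rw [← map_mul, ← map_mul]
    exact congrArg _ (Subtype.ext (Subgroup.mem_centralizer_iff.1 huU.2 k hk).symm)
  have hUimg : alt (orbit (stabilizer G a) b) ≤ img f U := by
    refine alt_le_img h5 hUn (by
      rw [img_self]; exact hS.left.alt_le_range ((by decide : 5 ≤ 6).trans hS.six))
      fun h => hS.not_ge fun x hx => ?_
    have h1 : (⟨x, (core_le_inf b a hx).2⟩ : stabilizer G a) ∈ f.ker :=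
      img_eq_bot.1 h x _ (hLU hx)
    rw [hfdef, ker_eq_core] at h1
    exact h1
  have hdec : ∀ x : stabilizer G a, ∃ t : ↥(stabilizer G b ⊓ stabilizer G a),
      (x : G) * (t : G)⁻¹ ∈ U := by
    intro x
    obtain ⟨i', hi1, hi2, -, -⟩ := exists_avoid h5 (⟨b, mem_orbit_self b⟩ :
      orbit (stabilizer G a) b) (x • ⟨b, mem_orbit_self b⟩) (x • ⟨b, mem_orbit_self b⟩)
      (x • ⟨b, mem_orbit_self b⟩)
    obtain ⟨σ, hσ, -, hσb⟩ := alt_two_transitive h5 (i := i') hi1.symm hi2.symm
    obtain ⟨u, hua, hu, hfu⟩ := mem_img.1 (hUimg hσ)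
    have hub : u • b = (x : G) • b := by
      rw [← hfu] at hσb
      exact congrArg Subtype.val hσb
    refine ⟨⟨u⁻¹ * x, ?_, (stabilizer G a).mul_mem ((stabilizer G a).inv_mem hua) x.2⟩, ?_⟩
    · show (u⁻¹ * (x : G)) • b = b
      rw [mul_smul, ← hub, inv_smul_smul]
    · show (x : G) * (u⁻¹ * x)⁻¹ ∈ U
      rwa [mul_inv_rev, inv_inv, ← mul_assoc, mul_inv_cancel, one_mul]
  choose t ht using hdec
  have hwd : ∀ (x : stabilizer G a) (s : ↥(stabilizer G b ⊓ stabilizer G a)),
      (x : G) * (s : G)⁻¹ ∈ U → res b a s = res b a (t x) := by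
    intro x s hs
    have h1 : ((t x * s⁻¹ : ↥(stabilizer G b ⊓ stabilizer G a)) : G) ∈ U := by
      have := U.mul_mem (U.inv_mem (ht x)) hs
      simpa [mul_assoc] using this
    have h2 := hUT _ h1 (t x * s⁻¹).2
    rw [map_mul, map_inv, mul_inv_eq_one] at h2
    exact h2.symm
  let θ : stabilizer G a →* Equiv.Perm (Rest G b a) :=
    MonoidHom.mk' (fun x => res b a (t x)) fun x y => by
      rw [← map_mul]
      refine (hwd (x * y) (t x * t y) ?_).symm
      have h1 := (Subgroup.mem_normalizer_iff.1 (hUn ((t x).2.2)) _).1 (ht y)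
      have := U.mul_mem (ht x) h1
      simpa [mul_assoc] using this
  have hθ : ∀ (x : stabilizer G a) (s : ↥(stabilizer G b ⊓ stabilizer G a)),
      (x : G) * (s : G)⁻¹ ∈ U → θ x = res b a s := fun x s hs => (hwd x s hs).symm
  let e1 : Equiv.Perm (orbit (stabilizer G a) b) ≃* Equiv.Perm (Fin d) :=
    (Finite.equivFinOfCardEq hS.left.card_orbit).permCongrHom
  let e2 : Equiv.Perm (Rest G b a) ≃* Equiv.Perm (Fin (d - 1)) :=
    (Finite.equivFinOfCardEq (show Nat.card (Rest G b a) = d - 1 by
      have := card_rest (G := G) b a; rw [hS.right.card_orbit] at this; omega)).permCongrHom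
  refine ⟨(e1.toMonoidHom.comp f).prod (e2.toMonoidHom.comp θ), ?_, ?_, ?_, ?_, ?_⟩
  · rw [injective_iff_map_eq_one]
    intro x hx
    obtain ⟨hx1, hx2⟩ := Prod.ext_iff.1 hx
    have hxK : (x : G) ∈ K := by
      have h1 : x ∈ f.ker := e1.injective (hx1.trans (map_one e1).symm)
      rw [hfdef, ker_eq_core] at h1
      exact h1
    have hxT : (x : G) ∈ stabilizer G b ⊓ stabilizer G a := ⟨(core_le_inf a b hxK).2, x.2⟩
    have h2 : res b a (⟨(x : G), hxT⟩ : ↥(stabilizer G b ⊓ stabilizer G a)) = 1 := by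
      rw [← hθ x ⟨(x : G), hxT⟩ (by simp)]
      exact e2.injective (hx2.trans (map_one e2).symm)
    have h3 : (x : G) ∈ K ⊓ L := ⟨hxK, (res_eq_one hxT).1 h2⟩
    rw [h0, Subgroup.mem_bot] at h3
    exact Subtype.ext h3
  · intro σ hσ
    rw [← map_alt e1] at hσ
    obtain ⟨s, hs, rfl⟩ := hσ
    obtain ⟨u, hua, hu, rfl⟩ := mem_img.1 (hUimg hs)
    refine ⟨⟨u, hua⟩, Prod.ext rfl ?_⟩
    show e2 (θ ⟨u, hua⟩) = 1
    rw [hθ ⟨u, hua⟩ 1 (by simpa using hu), map_one, map_one]
  · intro τ hτ
    rw [← map_alt e2] at hτ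
    obtain ⟨s, hs, rfl⟩ := hτ
    obtain ⟨k, hkT, hk, rfl⟩ := mem_img.1 (hS.alt_le_img_kernel (mem_orbit_self b) hs)
    refine ⟨⟨k, hkT.2⟩, Prod.ext ?_ ?_⟩
    · show e1 (f ⟨k, hkT.2⟩) = 1
      have h1 : (⟨k, hkT.2⟩ : stabilizer G a) ∈ f.ker := by rw [hfdef, ker_eq_core]; exact hk
      rw [MonoidHom.mem_ker.1 h1, map_one]
    · show e2 (θ ⟨k, hkT.2⟩) = e2 _
      rw [hθ ⟨k, hkT.2⟩ ⟨k, hkT⟩ (by simp)]
  · rw [MonoidHom.fst_comp_prod, MonoidHom.range_comp,
      Subgroup.card_map_of_injective e1.injective]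
    exact card_range_mul_card_core a b
  · rw [MonoidHom.snd_comp_prod, MonoidHom.range_comp,
      Subgroup.card_map_of_injective e2.injective,
      show θ.range = (res b a).range from le_antisymm
        (by rintro _ ⟨x, rfl⟩; exact ⟨t x, rfl⟩)
        (by rintro _ ⟨s, rfl⟩; exact ⟨⟨s, s.2.2⟩, hθ _ s (by simp)⟩),
      ← Subgroup.index_ker, res_ker, inf_comm (stabilizer G a)]
    conv_rhs => rw [← Subgroup.index_mul_card
      ((core G b a).subgroupOf (stabilizer G b ⊓ stabilizer G a))]
    rw [Nat.card_congr (Subgroup.subgroupOfEquivOfLe (core_le_inf b a)).toEquiv]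

/-- A group of pairs of permutations containing all pairs of even ones is fixed by the signs. -/
theorem mem_of_signs {m n : ℕ} (hm : 5 ≤ m) (hn : 5 ≤ n)
    {H : Subgroup (Equiv.Perm (Fin m) × Equiv.Perm (Fin n))}
    (h1 : ∀ σ ∈ alt (Fin m), (σ, 1) ∈ H) (h2 : ∀ τ ∈ alt (Fin n), (1, τ) ∈ H)
    {x y : Equiv.Perm (Fin m) × Equiv.Perm (Fin n)} (hx : x ∈ H)
    (e1 : Equiv.Perm.sign y.1 = Equiv.Perm.sign x.1)
    (e2 : Equiv.Perm.sign y.2 = Equiv.Perm.sign x.2) : y ∈ H := by
  have ha : y.1 * x.1⁻¹ ∈ alt (Fin m) := by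
    rw [alt_eq (by simpa using hm), Equiv.Perm.mem_alternatingGroup]
    simp [e1]
  have hb : y.2 * x.2⁻¹ ∈ alt (Fin n) := by
    rw [alt_eq (by simpa using hn), Equiv.Perm.mem_alternatingGroup]
    simp [e2]
  have := H.mul_mem (H.mul_mem (h1 _ ha) (h2 _ hb)) hx
  convert this using 1
  ext <;> simp

end CfsgLib.Suborbit
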