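import Cfsg.Agent.Suborbit.AltKernel

/-!
The two kernels attached to an edge of an alternating or symmetric suborbit are disjoint.
-/

set_option autoImplicit false
set_option linter.style.haveILetI false
set_option linter.unusedSectionVars false

namespace CfsgLib.Suborbit

open MulAction CfsgLib.ThompsonWielandt

variable (G : Type*) {Ω : Type*} [Group G] [MulAction G Ω]

/-- Both ends of the edge `a, b` induce the alternating or symmetric group, neither kernel lies in
the other. -/
structure AltSetting (a b : Ω) (d : ℕ) : Prop where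
  six : 6 ≤ d
  left : AltPair G a b d
  right : AltPair G b a d
  not_le : ¬ core G a b ≤ core G b a
  not_ge : ¬ core G b a ≤ core G a b

/-- The elements of the kernel at `a` in the kernels at all neighbours of `a` other than `i`. -/
def skel (a b i : Ω) : Subgroup G :=
  core G a b ⊓ ⨅ j ∈ orbit (stabilizer G a) b \ {i}, core G j a

variable {G}

theorem AltSetting.symm {a b : Ω} {d : ℕ} (hS : AltSetting G a b d) : AltSetting G b a d :=
  ⟨hS.six, hS.right, hS.left, hS.not_ge, hS.not_le⟩

theorem mem_skel {a b i : Ω} {x : G} :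
    x ∈ skel G a b i ↔ x ∈ core G a b ∧
      ∀ j ∈ orbit (stabilizer G a) b, j ≠ i → x ∈ core G j a := by
  simp [skel, Subgroup.mem_iInf]

theorem skel_le (a b i : Ω) : skel G a b i ≤ core G a b := inf_le_left

variable [Finite G] [Finite Ω] {a b : Ω} {d : ℕ}

theorem map_conj_edge {h : G} (ha : h • a = a) {i : Ω} (hi : i ∈ orbit (stabilizer G a) b) :
    (core G a b ⊓ core G i a).map (MulAut.conj h).toMonoidHom =
      core G a b ⊓ core G (h • i) a := by
  rw [Subgroup.map_inf _ _ _ (MulAut.conj h).injective, ← core_congr hi, map_conj_core,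
    map_conj_core, ha, core_congr hi, core_congr (smul_mem_orbit ha hi)]

theorem conj_mem_skel {h x : G} (ha : h • a = a) {i : Ω} (hx : x ∈ skel G a b i) :
    h * x * h⁻¹ ∈ skel G a b (h • i) := by
  rw [mem_skel] at hx ⊢
  refine ⟨(Subgroup.mem_normalizer_iff.1 (stabilizer_le_normalizer_core a b ha) x).1 hx.1,
    fun j hj hji => ?_⟩
  have h1 : h⁻¹ ∈ stabilizer G a := (stabilizer G a).inv_mem ha
  have := conj_mem_core (h := h) (hx.2 (h⁻¹ • j) (smul_mem_orbit h1 hj)
    (fun e => hji (by rw [← e, smul_inv_smul])))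
  rwa [smul_inv_smul, ha] at this

theorem stabilizer_inf_le_normalizer_skel (i : Ω) :
    stabilizer G a ⊓ stabilizer G i ≤ Subgroup.normalizer (skel G a b i : Set G) :=
  le_normalizer_of_conj_mem fun h hh x hx => by
    have := conj_mem_skel hh.1 hx
    rwa [show h • i = i from hh.2] at this

theorem core_le_normalizer_skel {i : Ω} (hi : i ∈ orbit (stabilizer G a) b) :
    core G a b ≤ Subgroup.normalizer (skel G a b i : Set G) :=
  ((core_le_point hi).trans (le_of_eq (inf_comm _ _))).trans (stabilizer_inf_le_normalizer_skel i)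

theorem skel_inf_skel (hcor : Shallow G a b) {i j : Ω} (hij : i ≠ j) {x : G}
    (hi : x ∈ skel G a b i) (hj : x ∈ skel G a b j) : x = 1 := by
  rw [mem_skel] at hi hj
  refine hcor x hi.1 fun y hy => ?_
  by_cases hyi : y = i
  · exact hj.2 y hy (hyi ▸ hij)
  · exact hi.2 y hy hyi

theorem AltSetting.pair_at (hS : AltSetting G a b d) {i : Ω}
    (hi : i ∈ orbit (stabilizer G a) b) : AltPair G i a d := by
  obtain ⟨h, ha, rfl⟩ := exists_smul_of_mem_orbit hi
  have := hS.right.smul h
  rwa [ha] at this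

theorem AltSetting.not_le_at (hS : AltSetting G a b d) {i : Ω}
    (hi : i ∈ orbit (stabilizer G a) b) : ¬ core G a b ≤ core G i a := by
  obtain ⟨h, ha, rfl⟩ := exists_smul_of_mem_orbit hi
  intro hle
  apply hS.not_le
  have := map_conj_core (h := h) a b
  rw [ha, core_congr hi] at this
  have h2 := map_conj_core (h := h) b a
  rw [ha] at h2
  rw [← Subgroup.map_le_map_iff_of_injective (f := (MulAut.conj h).toMonoidHom)
    (MulAut.conj h).injective, this, h2]
  exact hle

theorem AltSetting.alt_le_img_kernel (hS : AltSetting G a b d) {i : Ω}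
    (hi : i ∈ orbit (stabilizer G a) b) :
    alt (Rest G i a) ≤ img (res i a) (core G a b) := by
  have hp := hS.pair_at hi
  refine alt_le_img (hp.five_le_rest hS.six)
    (inf_le_right.trans (stabilizer_le_normalizer_core a b)) (hp.alt_le_res hS.six) fun h => ?_
  exact hS.not_le_at hi ((img_res_eq_bot (core_le_point hi)).1 h)

theorem AltSetting.alt_le_img_sub (hS : AltSetting G a b d) {i : Ω}
    (hi : i ∈ orbit (stabilizer G a) b) {M : Subgroup G} (hMK : M ≤ core G a b)
    (hn : core G a b ≤ Subgroup.normalizer (M : Set G)) (hM : ¬ M ≤ core G i a) :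
    alt (Rest G i a) ≤ img (res i a) M :=
  alt_le_img ((hS.pair_at hi).five_le_rest hS.six) hn (hS.alt_le_img_kernel hi)
    fun h => hM ((img_res_eq_bot (hMK.trans (core_le_point hi))).1 h)

theorem AltSetting.not_edge_le (hS : AltSetting G a b d) (hcor : Shallow G a b)
    (hN : core G a b ⊓ core G b a ≠ ⊥) {i j : Ω} (hi : i ∈ orbit (stabilizer G a) b)
    (hj : j ∈ orbit (stabilizer G a) b) (hij : j ≠ i) :
    ¬ core G a b ⊓ core G j a ≤ core G i a := by
  intro hle
  obtain ⟨hi', hia, hib⟩ := exists_smul_of_mem_orbit hi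
  obtain ⟨hj', hja, hjb⟩ := exists_smul_of_mem_orbit hj
  have ci : Nat.card (core G a b ⊓ core G i a : Subgroup G) =
      Nat.card (core G a b ⊓ core G b a : Subgroup G) := by
    rw [← hib, ← map_conj_edge hia (mem_orbit_self b),
      Subgroup.card_map_of_injective (MulAut.conj hi').injective]
  have cj : Nat.card (core G a b ⊓ core G j a : Subgroup G) =
      Nat.card (core G a b ⊓ core G b a : Subgroup G) := by
    rw [← hjb, ← map_conj_edge hja (mem_orbit_self b),
      Subgroup.card_map_of_injective (MulAut.conj hj').injective]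
  have heq : core G a b ⊓ core G j a = core G a b ⊓ core G i a :=
    Subgroup.eq_of_le_of_card_ge (le_inf inf_le_left hle) (by rw [ci, cj])
  apply hN
  rw [← Subgroup.card_eq_one, ← ci, Subgroup.card_eq_one, Subgroup.eq_bot_iff_forall]
  refine fun x hx => hcor x hx.1 fun k hk => ?_
  by_cases hki : k = i
  · exact hki ▸ hx.2
  obtain ⟨σ, hσ, hσi, hσj⟩ := alt_two_transitive (α := orbit (stabilizer G a) b)
    (by rw [hS.left.card_orbit]; exact (by decide : 5 ≤ 6).trans hS.six)
    (i := ⟨i, hi⟩) (j := ⟨j, hj⟩) (k := ⟨k, hk⟩)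
    (fun e => hij (congrArg Subtype.val e)) (fun e => hki (congrArg Subtype.val e))
  obtain ⟨h, rfl⟩ := hS.left.alt_le_range ((by decide : 5 ≤ 6).trans hS.six) hσ
  have e := congrArg (Subgroup.map (MulAut.conj (h : G)).toMonoidHom) heq
  rw [map_conj_edge h.2 hj, map_conj_edge h.2 hi,
    show (h : G) • j = k from congrArg Subtype.val hσj,
    show (h : G) • i = i from congrArg Subtype.val hσi] at e
  exact (e ▸ hx : x ∈ core G a b ⊓ core G k a).2

theorem AltSetting.alt_le_img_skel (hS : AltSetting G a b d) (hcor : Shallow G a b)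
    (hN : core G a b ⊓ core G b a ≠ ⊥) {i : Ω} (hi : i ∈ orbit (stabilizer G a) b) :
    alt (Rest G i a) ≤ img (res i a) (skel G a b i) := by
  classical
  have hfin : (orbit (stabilizer G a) b \ {i}).Finite := Set.toFinite _
  have key := img_biInf (alt_perfect ((hS.pair_at hi).five_le_rest hS.six)) hfin.toFinset
    (fun j => core G j a) (hS.alt_le_img_kernel hi)
    (fun j hj => ((core_le_point (hfin.mem_toFinset.1 hj).1).trans inf_le_left).trans
      (stabilizer_le_normalizer_core j a))
    (fun j hj => by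
      obtain ⟨hj1, hj2⟩ := hfin.mem_toFinset.1 hj
      exact hS.alt_le_img_sub hi inf_le_left (normalizes_inf Subgroup.le_normalizer
        (((core_le_point hj1).trans inf_le_left).trans (stabilizer_le_normalizer_core j a)))
        fun h => hS.not_edge_le hcor hN hi hj1 hj2 h)
  refine key.trans (img_mono (le_of_eq ?_))
  simp [skel, Set.Finite.mem_toFinset]

theorem AltSetting.exists_skel_ne_one (hS : AltSetting G a b d) (hcor : Shallow G a b)
    (hN : core G a b ⊓ core G b a ≠ ⊥) {i : Ω} (hi : i ∈ orbit (stabilizer G a) b) :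
    ∃ x ∈ skel G a b i, x ≠ 1 := by
  by_contra! h
  refine alt_ne_bot ((hS.pair_at hi).five_le_rest hS.six) (le_bot_iff.1
    ((hS.alt_le_img_skel hcor hN hi).trans (img_eq_bot.2 fun x hx hxs => ?_).le))
  exact (res_eq_one hx).2 (h x hxs ▸ one_mem _)

theorem skel_commute (hcor : Shallow G a b) {u n : G} (hu : u ∈ skel G a b b)
    (hn : n ∈ core G a b ⊓ core G b a) : u * n = n * u := by
  have h1 : u * n * u⁻¹ * n⁻¹ ∈ skel G a b b := by
    rw [mul_assoc u n, mul_assoc]
    exact (skel G a b b).mul_mem hu ((Subgroup.mem_normalizer_iff.1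
      (core_le_normalizer_skel (mem_orbit_self b) hn.1) _).1 ((skel G a b b).inv_mem hu))
  have h2 : u * n * u⁻¹ * n⁻¹ ∈ core G b a :=
    (core G b a).mul_mem ((Subgroup.mem_normalizer_iff.1 (stabilizer_le_normalizer_core b a
      (core_le_inf a b hu.1).2) n).1 hn.2) ((core G b a).inv_mem hn.2)
  have h3 : u * n * u⁻¹ * n⁻¹ = 1 := hcor _ (skel_le a b b h1) fun y hy => by
    by_cases hyb : y = b
    · exact hyb ▸ h2
    · exact (mem_skel.1 h1).2 y hy hyb
  exact mul_inv_eq_iff_eq_mul.1 (mul_inv_eq_one.1 h3)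

/-- Two normal subgroups of the stabiliser that commute elementwise: one is trivial. -/
theorem AltSetting.no_commuting (hS : AltSetting G a b d) (hcor : Shallow G a b)
    (hN : core G a b ⊓ core G b a ≠ ⊥) {U V : Subgroup G} (hU : U ≤ stabilizer G a)
    (hUn : stabilizer G a ≤ Subgroup.normalizer (U : Set G)) (hV : V ≤ stabilizer G a)
    (hVn : stabilizer G a ≤ Subgroup.normalizer (V : Set G))
    (hc : ∀ u ∈ U, ∀ v ∈ V, u * v = v * u) : U = ⊥ ∨ V = ⊥ := by
  have key : ∀ W : Subgroup G, W ≤ stabilizer G a →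
      stabilizer G a ≤ Subgroup.normalizer (W : Set G) → W ≠ ⊥ →
      alt (Rest G b a) ≤ img (res b a) (W ⊓ skel G a b b) := by
    intro W hW hWn hW1
    have hWK : W ⊓ core G a b ≠ ⊥ := by
      intro h0
      apply hW1
      rw [Subgroup.eq_bot_iff_forall] at h0 ⊢
      intro u hu
      have hcomm : ∀ k ∈ core G a b, u * k = k * u := by
        intro k hk
        refine mul_inv_eq_iff_eq_mul.1 (mul_inv_eq_one.1
          (h0 (u * k * u⁻¹ * k⁻¹) ⟨?_, ?_⟩))
        · rw [mul_assoc u k, mul_assoc]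
          exact W.mul_mem hu ((Subgroup.mem_normalizer_iff.1
            (hWn (core_le_stabilizer a b hk)) _).1 (W.inv_mem hu))
        · exact (core G a b).mul_mem ((Subgroup.mem_normalizer_iff.1
            (stabilizer_le_normalizer_core a b (hW hu)) k).1 hk) ((core G a b).inv_mem hk)
      refine h0 u ⟨hu, mem_core.2 ⟨hW hu, fun y hy => ?_⟩⟩
      by_contra hne
      obtain ⟨x, hx, hx1⟩ := hS.exists_skel_ne_one hcor hN hy
      have h2 := conj_mem_skel (hW hu) hx
      rw [hcomm x (skel_le _ _ _ hx), mul_inv_cancel_right] at h2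
      exact hx1 (skel_inf_skel hcor (Ne.symm hne) hx h2)
    obtain ⟨x, hx, hx1⟩ : ∃ x ∈ W ⊓ core G a b, x ≠ 1 := by
      by_contra! h
      exact hWK ((Subgroup.eq_bot_iff_forall _).2 h)
    obtain ⟨i, hi, hxi⟩ : ∃ i ∈ orbit (stabilizer G a) b, x ∉ core G i a := by
      by_contra! h
      exact hx1 (hcor x hx.2 h)
    have hKn : core G a b ≤ Subgroup.normalizer (W : Set G) :=
      (core_le_stabilizer a b).trans hWn
    have h5 := (hS.pair_at hi).five_le_rest hS.six
    have h3 : alt (Rest G i a) ≤ img (res i a) (W ⊓ core G a b ⊓ skel G a b i) :=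
      img_inf (alt_perfect h5) (inf_le_right.trans (core_le_normalizer_skel hi))
        ((skel_le a b i).trans (normalizes_inf hKn Subgroup.le_normalizer))
        (hS.alt_le_img_sub hi inf_le_right (normalizes_inf hKn Subgroup.le_normalizer)
          fun h => hxi (h hx))
        (hS.alt_le_img_skel hcor hN hi)
    obtain ⟨y, hy, hy1⟩ : ∃ y ∈ W ⊓ skel G a b i, y ≠ 1 := by
      by_contra! h
      refine alt_ne_bot h5 (le_bot_iff.1 (h3.trans (img_eq_bot.2 fun y hy hyW => ?_).le))
      exact (res_eq_one hy).2 (h y ⟨hyW.1.1, hyW.2⟩ ▸ one_mem _)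
    obtain ⟨h, hha, hhb⟩ := exists_smul_of_mem_orbit hi
    refine hS.alt_le_img_sub (mem_orbit_self b) (inf_le_right.trans (skel_le a b b))
      (normalizes_inf hKn (core_le_normalizer_skel (mem_orbit_self b))) fun hle => hy1 ?_
    have hinv : h⁻¹ ∈ stabilizer G a := (stabilizer G a).inv_mem hha
    have hz : h⁻¹ * y * h⁻¹⁻¹ ∈ W ⊓ skel G a b b := by
      refine ⟨(Subgroup.mem_normalizer_iff.1 (hWn hinv) y).1 hy.1, ?_⟩
      have := conj_mem_skel hinv hy.2
      rwa [← hhb, inv_smul_smul] at this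
    have hz1 : h⁻¹ * y * h⁻¹⁻¹ = 1 := hcor _ (skel_le _ _ _ hz.2) fun j hj => by
      by_cases hjb : j = b
      · exact hjb ▸ hle hz
      · exact (mem_skel.1 hz.2).2 j hj hjb
    rwa [inv_inv, mul_eq_one_iff_eq_inv, mul_eq_left] at hz1
  by_contra! h
  have h5 := (hS.pair_at (mem_orbit_self b)).five_le_rest hS.six
  refine alt_ne_bot h5 ((Subgroup.eq_bot_iff_forall _).2 fun s hs => ?_)
  refine eq_one_of_commute_alt h5 fun t ht => ?_
  obtain ⟨u, huT, hu, rfl⟩ := mem_img.1 (key U hU hUn h.1 hs)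
  obtain ⟨v, hvT, hv, rfl⟩ := mem_img.1 (key V hV hVn h.2 ht)
  rw [← map_mul, ← map_mul]
  exact congrArg _ (Subtype.ext (hc u hu.1 v hv.1))

theorem AltSetting.shallow_symm (hS : AltSetting G a b d) (hcor : Shallow G a b)
    (hN : core G a b ⊓ core G b a ≠ ⊥) {g : G} (hg : g • a = b) : Shallow G b a := by
  set J : Subgroup G := core G b a ⊓ ⨅ j ∈ orbit (stabilizer G b) a, core G j b with hJ
  have memJ : ∀ x, x ∈ J ↔ x ∈ core G b a ∧
      ∀ j ∈ orbit (stabilizer G b) a, x ∈ core G j b := fun x => by simp [hJ, Subgroup.mem_iInf]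
  suffices hJ1 : J = ⊥ by
    intro x hx h
    have := (memJ x).2 ⟨hx, h⟩
    rwa [hJ1, Subgroup.mem_bot] at this
  have hJn : stabilizer G b ≤ Subgroup.normalizer (J : Set G) := by
    refine le_normalizer_of_conj_mem fun h hh x hx => ?_
    rw [memJ] at hx ⊢
    refine ⟨(Subgroup.mem_normalizer_iff.1 (stabilizer_le_normalizer_core b a hh) x).1 hx.1,
      fun j hj => ?_⟩
    have := conj_mem_core (h := h)
      (hx.2 (h⁻¹ • j) (smul_mem_orbit ((stabilizer G b).inv_mem hh) hj))
    rwa [smul_inv_smul, mem_stabilizer_iff.1 hh] at this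
  set C : Subgroup G := stabilizer G b ⊓ Subgroup.centralizer (J : Set G) with hC
  have hCn : stabilizer G b ≤ Subgroup.normalizer (C : Set G) := by
    refine le_normalizer_of_conj_mem fun h hh c hc => ⟨(stabilizer G b).mul_mem
      ((stabilizer G b).mul_mem hh hc.1) ((stabilizer G b).inv_mem hh), ?_⟩
    refine Subgroup.mem_centralizer_iff.2 fun y hy => ?_
    have h1 := Subgroup.mem_centralizer_iff.1 hc.2 _
      ((Subgroup.mem_normalizer_iff''.1 (hJn hh) y).1 hy)
    calc y * (h * c * h⁻¹) = h * (h⁻¹ * y * h * c) * h⁻¹ := by group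
      _ = h * (c * (h⁻¹ * y * h)) * h⁻¹ := by rw [h1]
      _ = h * c * h⁻¹ * y := by group
  have hmap : (stabilizer G b).map (MulAut.conj g⁻¹).toMonoidHom = stabilizer G a := by
    rw [← stabilizer_smul_eq_stabilizer_map_conj, ← hg, inv_smul_smul]
  have hinj : Function.Injective (MulAut.conj g⁻¹).toMonoidHom := (MulAut.conj g⁻¹).injective
  rcases hS.no_commuting hcor hN (U := J.map (MulAut.conj g⁻¹).toMonoidHom)
    (V := C.map (MulAut.conj g⁻¹).toMonoidHom)
    (hmap ▸ Subgroup.map_mono (inf_le_left.trans (core_le_stabilizer b a)))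
    (hmap ▸ le_normalizer_map (MulAut.conj g⁻¹) hJn) (hmap ▸ Subgroup.map_mono inf_le_left)
    (hmap ▸ le_normalizer_map (MulAut.conj g⁻¹) hCn)
    (by rintro _ ⟨u, hu, rfl⟩ _ ⟨v, hv, rfl⟩
        rw [← map_mul, ← map_mul, Subgroup.mem_centralizer_iff.1 hv.2 u hu]) with h | h
  · exact (Subgroup.map_eq_bot_iff_of_injective _ hinj).1 h
  · exfalso
    rw [Subgroup.map_eq_bot_iff_of_injective _ hinj, Subgroup.eq_bot_iff_forall] at h
    obtain ⟨x, hx, hx1⟩ := hS.exists_skel_ne_one hcor hN (mem_orbit_self b)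
    refine hx1 (h x ⟨(core_le_inf a b (skel_le _ _ _ hx)).2,
      Subgroup.mem_centralizer_iff.2 fun y hy => ?_⟩)
    rw [SetLike.mem_coe, memJ] at hy
    exact (skel_commute hcor hx ⟨hy.2 a (mem_orbit_self a), hy.1⟩).symm

theorem AltSetting.inf_core_eq_bot' (hS : AltSetting G a b d) (hcor : Shallow G a b) {g : G}
    (hg : g • a = b) : core G a b ⊓ core G b a = ⊥ := by
  by_contra hN
  have hcor' := hS.shallow_symm hcor hN hg
  have hN' : core G b a ⊓ core G a b ≠ ⊥ := by rwa [inf_comm]
  obtain ⟨u, hu, hu1⟩ := hS.symm.exists_skel_ne_one hcor' hN' (mem_orbit_self a)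
  have huT := core_le_inf b a (skel_le _ _ _ hu)
  obtain ⟨i, hi, hne⟩ : ∃ i ∈ orbit (stabilizer G a) b, u • i ≠ i := by
    by_contra! h
    refine hu1 (hcor' u (skel_le _ _ _ hu) fun y hy => ?_)
    by_cases hya : y = a
    · exact hya ▸ mem_core.2 ⟨huT.2, h⟩
    · exact (mem_skel.1 hu).2 y hy hya
  obtain ⟨x, hx, hx1⟩ := hS.exists_skel_ne_one hcor hN hi
  have hib : i ≠ b := fun e => hne (e ▸ huT.1)
  have hxN : x ∈ core G b a ⊓ core G a b :=
    ⟨(mem_skel.1 hx).2 b (mem_orbit_self b) hib.symm, skel_le _ _ _ hx⟩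
  have h2 := conj_mem_skel (show u • a = a from huT.2) hx
  rw [skel_commute hcor' hu hxN, mul_inv_cancel_right] at h2
  exact hx1 (skel_inf_skel hcor hne.symm hx h2)

theorem AltSetting.inf_core_eq_bot (hS : AltSetting G a b d)
    (hcor : Shallow G a b ∨ Shallow G b a) {g : G} (hg : g • a = b) :
    core G a b ⊓ core G b a = ⊥ := by
  rcases hcor with h | h
  · exact hS.inf_core_eq_bot' h hg
  · rw [inf_comm]
    exact hS.symm.inf_core_eq_bot' h (g := g⁻¹) (by rw [← hg, inv_smul_smul])

end CfsgLib.Suborbit
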