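import Cfsg.Agent.Suborbit.AltPerm
import Cfsg.Agent.ThompsonWielandt.Consequences

/-!
The kernels of a point stabiliser on a suborbit on which it induces the alternating or symmetric
group.
-/

set_option autoImplicit false
set_option linter.style.haveILetI false
set_option linter.unusedSectionVars false

namespace CfsgLib.Suborbit

open MulAction CfsgLib.ThompsonWielandt

variable (G : Type*) {Ω : Type*} [Group G] [MulAction G Ω]

/-- The kernel of the stabiliser of `p` on its orbit of `q`. -/
def core (p q : Ω) : Subgroup G :=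
  coreIn (stabilizer G p) (stabilizer G p ⊓ stabilizer G q)

/-- No non-trivial element of the kernel fixes everything at distance two. -/
def Shallow (p q : Ω) : Prop :=
  ∀ x ∈ core G p q, (∀ y ∈ orbit (stabilizer G p) q, x ∈ core G y p) → x = 1

/-- The orbit of `q` has length `d` and carries the alternating or symmetric group. -/
structure AltPair (p q : Ω) (d : ℕ) : Prop where
  card_orbit : Nat.card (orbit (stabilizer G p) q) = d
  big : d.factorial * Nat.card (core G p q) ≤ 2 * Nat.card (stabilizer G p)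

variable {G}

theorem smul_mem_orbit {p q y : Ω} {x : G} (hx : x ∈ stabilizer G p)
    (hy : y ∈ orbit (stabilizer G p) q) : x • y ∈ orbit (stabilizer G p) q := by
  obtain ⟨h, rfl⟩ := hy
  exact ⟨⟨x, hx⟩ * h, mul_smul _ _ _⟩

theorem exists_smul_of_mem_orbit {p q y : Ω} (hy : y ∈ orbit (stabilizer G p) q) :
    ∃ h : G, h • p = p ∧ h • q = y := by
  obtain ⟨h, rfl⟩ := hy
  exact ⟨h, h.2, rfl⟩

theorem mem_core {p q : Ω} {x : G} :
    x ∈ core G p q ↔ x • p = p ∧ ∀ y ∈ orbit (stabilizer G p) q, x • y = y := by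
  rw [core, mem_coreIn]
  refine ⟨fun h => ⟨h.1, fun y hy => ?_⟩, fun h => ⟨h.1, fun k hk => ⟨?_, ?_⟩⟩⟩
  · obtain ⟨k, hk, rfl⟩ := exists_smul_of_mem_orbit hy
    have := mem_stabilizer_iff.1 (h.2 k⁻¹ ((stabilizer G p).inv_mem hk)).2
    rw [inv_inv, mul_smul, mul_smul, inv_smul_eq_iff] at this
    exact this
  · exact (stabilizer G p).mul_mem ((stabilizer G p).mul_mem hk h.1) ((stabilizer G p).inv_mem hk)
  · show (k * x * k⁻¹) • q = q
    rw [mul_smul, mul_smul,
      h.2 _ (smul_mem_orbit ((stabilizer G p).inv_mem hk) (mem_orbit_self q)), smul_inv_smul]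

theorem core_le_stabilizer (p q : Ω) : core G p q ≤ stabilizer G p := coreIn_le_left _ _

theorem core_le_inf (p q : Ω) : core G p q ≤ stabilizer G p ⊓ stabilizer G q :=
  coreIn_le_right _ _

theorem core_le_point {p q y : Ω} (hy : y ∈ orbit (stabilizer G p) q) :
    core G p q ≤ stabilizer G y ⊓ stabilizer G p :=
  le_inf (fun _ hx => (mem_core.1 hx).2 y hy) (core_le_stabilizer p q)

theorem core_congr {p q y : Ω} (hy : y ∈ orbit (stabilizer G p) q) :
    core G p y = core G p q := by
  ext x
  rw [mem_core, mem_core, orbit_eq_iff.2 hy]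

theorem map_conj_core [Finite G] (h : G) (p q : Ω) :
    (core G p q).map (MulAut.conj h).toMonoidHom = core G (h • p) (h • q) := by
  rw [core, core, map_coreIn, Subgroup.map_inf _ _ _ (MulAut.conj h).injective,
    ← stabilizer_smul_eq_stabilizer_map_conj, ← stabilizer_smul_eq_stabilizer_map_conj]

theorem conj_mem_core [Finite G] {h x : G} {p q : Ω} (hx : x ∈ core G p q) :
    h * x * h⁻¹ ∈ core G (h • p) (h • q) :=
  map_conj_core h p q ▸ Subgroup.mem_map_of_mem (MulAut.conj h).toMonoidHom hx

section Finite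

variable [Finite G]

theorem stabilizer_le_normalizer_core (p q : Ω) :
    stabilizer G p ≤ Subgroup.normalizer (core G p q : Set G) := le_normalizer_coreIn _ _

theorem card_orbit_smul (h : G) (p q : Ω) :
    Nat.card (orbit (stabilizer G (h • p)) (h • q)) = Nat.card (orbit (stabilizer G p) q) := by
  have h1 := orbit_card_mul (G := G) (h • p) (h • q)
  rw [stabilizer_smul_eq_stabilizer_map_conj h q, card_stabilizer_smul] at h1
  rw [stabilizer_smul_eq_stabilizer_map_conj h p] at h1 ⊢
  rw [← Subgroup.map_inf _ _ _ (MulAut.conj h).injective,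
    Subgroup.card_map_of_injective (MulAut.conj h).injective] at h1
  exact mul_right_cancel₀ Nat.card_pos.ne' (h1.trans (orbit_card_mul (G := G) p q).symm)

theorem AltPair.smul {p q : Ω} {d : ℕ} (hp : AltPair G p q d) (h : G) :
    AltPair G (h • p) (h • q) d := by
  refine ⟨(card_orbit_smul h p q).trans hp.card_orbit, ?_⟩
  rw [← map_conj_core, Subgroup.card_map_of_injective (MulAut.conj h).injective,
    card_stabilizer_smul]
  exact hp.big

theorem ker_eq_core (p q : Ω) :
    (toPermHom (stabilizer G p) (orbit (stabilizer G p) q)).ker =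
      (core G p q).subgroupOf (stabilizer G p) := by
  ext ⟨x, hx⟩
  rw [MonoidHom.mem_ker, Subgroup.mem_subgroupOf, mem_core]
  refine ⟨fun h => ⟨hx, fun y hy => ?_⟩, fun h => Equiv.ext fun y => Subtype.ext (h.2 y y.2)⟩
  exact congrArg Subtype.val (Equiv.congr_fun h ⟨y, hy⟩)

theorem card_range_mul_card_core (p q : Ω) :
    Nat.card (toPermHom (stabilizer G p) (orbit (stabilizer G p) q)).range *
      Nat.card (core G p q) = Nat.card (stabilizer G p) := by
  rw [Subgroup.card_eq_card_quotient_mul_card_subgroup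
      (toPermHom (stabilizer G p) (orbit (stabilizer G p) q)).ker,
    Nat.card_congr (QuotientGroup.quotientKerEquivRange _).toEquiv, ker_eq_core,
    Nat.card_congr (Subgroup.subgroupOfEquivOfLe (core_le_stabilizer p q)).toEquiv]

variable [Finite Ω]

theorem AltPair.of_index {p q : Ω} {d : ℕ} (hd : Nat.card (orbit (stabilizer G p) q) = d)
    (h : (toPermHom (stabilizer G p) (orbit (stabilizer G p) q)).range.index ≤ 2) :
    AltPair G p q d := by
  refine ⟨hd, ?_⟩
  rw [← card_range_mul_card_core p q, ← mul_assoc]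
  refine Nat.mul_le_mul_right _ ?_
  have h1 := Subgroup.card_mul_index (toPermHom (stabilizer G p) (orbit (stabilizer G p) q)).range
  rw [Nat.card_perm, hd] at h1
  rw [← h1, mul_comm 2]
  exact Nat.mul_le_mul_left _ h

theorem AltPair.alt_le_range {p q : Ω} {d : ℕ} (hp : AltPair G p q d) (h5 : 5 ≤ d) :
    alt (orbit (stabilizer G p) q) ≤
      (toPermHom (stabilizer G p) (orbit (stabilizer G p) q)).range := by
  refine alt_le_of_index (hp.card_orbit ▸ h5) ?_
  have h1 := Subgroup.card_mul_index (toPermHom (stabilizer G p) (orbit (stabilizer G p) q)).range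
  rw [Nat.card_perm, hp.card_orbit] at h1
  have h2 := hp.big
  rw [← card_range_mul_card_core p q, ← mul_assoc] at h2
  have h3 := Nat.le_of_mul_le_mul_right h2 Nat.card_pos
  rw [← h1, mul_comm 2] at h3
  exact Nat.le_of_mul_le_mul_left h3 Nat.card_pos

end Finite

section Res

/-- The orbit of `q` with `q` removed. -/
abbrev Rest (G : Type*) {Ω : Type*} [Group G] [MulAction G Ω] (p q : Ω) : Type _ :=
  {y : orbit (stabilizer G p) q // y ≠ ⟨q, mem_orbit_self q⟩}

/-- The action of a two-point stabiliser on the rest of the suborbit. -/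
def res (p q : Ω) : ↥(stabilizer G p ⊓ stabilizer G q) →* Equiv.Perm (Rest G p q) :=
  MonoidHom.mk' (fun x =>
    (toPerm (Subgroup.inclusion inf_le_left x : stabilizer G p) :
      Equiv.Perm (orbit (stabilizer G p) q)).subtypePerm fun y => not_congr (by
        simp only [toPerm_apply]
        conv_lhs => rw [← show (Subgroup.inclusion inf_le_left x : stabilizer G p) •
          (⟨q, mem_orbit_self q⟩ : orbit (stabilizer G p) q) = ⟨q, mem_orbit_self q⟩ from
            Subtype.ext x.2.2]
        exact smul_left_cancel_iff _))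
    fun x y => by
      refine Equiv.ext fun z => Subtype.ext ?_
      exact mul_smul (Subgroup.inclusion inf_le_left x) (Subgroup.inclusion inf_le_left y) z.1

theorem res_eq_one {p q : Ω} {x : G} (hx : x ∈ stabilizer G p ⊓ stabilizer G q) :
    res p q ⟨x, hx⟩ = 1 ↔ x ∈ core G p q := by
  rw [mem_core]
  refine ⟨fun h => ⟨hx.1, fun y hy => ?_⟩, fun h =>
    Equiv.ext fun y => Subtype.ext (Subtype.ext (h.2 y.1 y.1.2))⟩
  by_cases hyq : y = q
  · exact hyq ▸ hx.2
  · exact congrArg (fun z => (z.1 : Ω))
      (Equiv.congr_fun h ⟨⟨y, hy⟩, fun e => hyq (congrArg Subtype.val e)⟩)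

theorem res_ker (p q : Ω) :
    (res p q).ker = (core G p q).subgroupOf (stabilizer G p ⊓ stabilizer G q) := by
  ext ⟨x, hx⟩
  exact res_eq_one hx

theorem img_res_eq_bot {p q : Ω} {M : Subgroup G} (hM : M ≤ stabilizer G p ⊓ stabilizer G q) :
    img (res p q) M = ⊥ ↔ M ≤ core G p q := by
  rw [img_eq_bot]
  exact ⟨fun h x hx => (res_eq_one (hM hx)).1 (h x (hM hx) hx),
    fun h x hx hxM => (res_eq_one hx).2 (h hxM)⟩

/-- Images normalised by a group inducing the alternating group contain it. -/
theorem alt_le_img {α : Type*} [Finite α] (h5 : 5 ≤ Nat.card α) {T X M : Subgroup G}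
    {f : T →* Equiv.Perm α} (hn : X ≤ Subgroup.normalizer (M : Set G)) (hX : alt α ≤ img f X)
    (hM : img f M ≠ ⊥) : alt α ≤ img f M := by
  refine alt_le_of_normalized h5 hM fun a ha m hm => ?_
  obtain ⟨x, hxT, hx, rfl⟩ := mem_img.1 (hX ha)
  obtain ⟨y, hyT, hy, rfl⟩ := mem_img.1 hm
  refine mem_img.2 ⟨x * y * x⁻¹, T.mul_mem (T.mul_mem hxT hyT) (T.inv_mem hxT),
    (Subgroup.mem_normalizer_iff.1 (hn hx) y).1 hy, ?_⟩
  rw [← map_inv, ← map_mul, ← map_mul]
  rfl

variable [Finite G] [Finite Ω]

theorem card_rest (p q : Ω) :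
    Nat.card (Rest G p q) + 1 = Nat.card (orbit (stabilizer G p) q) := by
  classical
  rw [← Finite.card_option]
  exact Nat.card_congr (Equiv.optionSubtypeNe _)

theorem AltPair.five_le_rest {p q : Ω} {d : ℕ} (hp : AltPair G p q d) (h6 : 6 ≤ d) :
    5 ≤ Nat.card (Rest G p q) := by
  have := card_rest (G := G) p q
  rw [hp.card_orbit] at this
  omega

theorem AltPair.alt_le_res {p q : Ω} {d : ℕ} (hp : AltPair G p q d) (h6 : 6 ≤ d) :
    alt (Rest G p q) ≤ img (res p q) (stabilizer G p ⊓ stabilizer G q) := by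
  classical
  intro σ hσ
  have h1 : Equiv.Perm.ofSubtype σ ∈ alt (orbit (stabilizer G p) q) := by
    have h2 := Subgroup.mem_map_of_mem
      (Equiv.Perm.ofSubtype (p := fun y : orbit (stabilizer G p) q => y ≠ ⟨q, mem_orbit_self q⟩))
      hσ
    rw [alt, commutator_def, Subgroup.map_commutator] at h2
    exact Subgroup.commutator_mono le_top le_top h2
  obtain ⟨x, hx⟩ := hp.alt_le_range (by omega) h1
  have hxq : (x : G) • q = q := by
    have := Equiv.congr_fun hx ⟨q, mem_orbit_self q⟩
    rw [Equiv.Perm.ofSubtype_apply_of_not_mem _ (by simp)] at this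
    exact congrArg Subtype.val this
  refine mem_img.2 ⟨x, ⟨x.2, hxq⟩, ⟨x.2, hxq⟩, Equiv.ext fun y => Subtype.ext ?_⟩
  have := Equiv.congr_fun hx y.1
  rw [Equiv.Perm.ofSubtype_apply_coe] at this
  exact this

theorem relIndex_core_le {p q : Ω} {d : ℕ} (hd : Nat.card (orbit (stabilizer G p) q) = d)
    {X : Subgroup G} (hX : X ≤ stabilizer G p ⊓ stabilizer G q) :
    (core G p q).relIndex X ≤ (d - 1).factorial := by
  have h1 : ((res p q).comp (Subgroup.inclusion hX)).ker = (core G p q).subgroupOf X := by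
    ext x
    exact res_eq_one (hX x.2)
  rw [Subgroup.relIndex, ← h1, Subgroup.index_ker]
  refine (Subgroup.card_le_card_group _).trans ?_
  rw [Nat.card_perm, show Nat.card (Rest G p q) = d - 1 by have := card_rest (G := G) p q; omega]

theorem AltPair.relIndex_lt {p q : Ω} {d : ℕ} (hd : Nat.card (orbit (stabilizer G p) q) = d)
    {X : Subgroup G} (hX : X ≤ stabilizer G p ⊓ stabilizer G q) {p' q' : Ω}
    (hp : AltPair G p' q' d) (h6 : 6 ≤ d) :
    (core G p q).relIndex X < Nat.card (alt (orbit (stabilizer G p') q')) := by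
  refine (relIndex_core_le hd hX).trans_lt ?_
  have h1 := two_mul_card_alt (α := orbit (stabilizer G p') q') (by rw [hp.card_orbit]; omega)
  rw [hp.card_orbit, ← Nat.mul_factorial_pred (by omega : d ≠ 0)] at h1
  have h2 := Nat.factorial_pos (d - 1)
  nlinarith

theorem card_alt_le_relIndex {p q : Ω} (h5 : 5 ≤ Nat.card (Rest G p q)) {X : Subgroup G}
    (hX : X ≤ stabilizer G p ⊓ stabilizer G q) (halt : alt (Rest G p q) ≤ img (res p q) X) :
    Nat.card (alt (Rest G p q)) ≤ (core G p q).relIndex X := by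
  by_contra h
  haveI := alt_simple h5
  refine alt_ne_bot h5 (le_bot_iff.1 ?_)
  rw [← (img_res_eq_bot ((inf_le_right).trans (core_le_inf p q))).2 (inf_le_right :
    X ⊓ core G p q ≤ _)]
  exact img_small hX ((hX.trans inf_le_left).trans (stabilizer_le_normalizer_core p q)) halt
    (not_le.1 h)

end Res

end CfsgLib.Suborbit
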