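import Mathlib

/-!
Alternating groups as derived groups of symmetric groups, and images of subgroups that keep a
perfect or simple quotient.
-/

set_option autoImplicit false
set_option linter.style.haveILetI false
set_option linter.unusedSectionVars false

namespace CfsgLib.Suborbit

/-- The alternating group of a finite set, as the derived subgroup of its symmetric group. -/
abbrev alt (α : Type*) : Subgroup (Equiv.Perm α) := commutator (Equiv.Perm α)

section Perm

variable {α : Type*} [Finite α]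

theorem alt_eq [Fintype α] [DecidableEq α] (h5 : 5 ≤ Nat.card α) : alt α = alternatingGroup α :=
  alternatingGroup.commutator_perm_eq h5

theorem alt_perfect (h5 : 5 ≤ Nat.card α) : ⁅alt α, alt α⁆ = alt α := by
  classical
  haveI := Fintype.ofFinite α
  rw [alt_eq h5, commutator_alternatingGroup_eq_self h5]

theorem alt_simple (h5 : 5 ≤ Nat.card α) : IsSimpleGroup (alt α) := by
  classical
  haveI := Fintype.ofFinite α
  rw [alt_eq h5]
  exact alternatingGroup.isSimpleGroup h5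

theorem two_mul_card_alt (h5 : 5 ≤ Nat.card α) :
    2 * Nat.card (alt α) = (Nat.card α).factorial := by
  classical
  haveI := Fintype.ofFinite α
  haveI : Nontrivial α := Finite.one_lt_card_iff_nontrivial.1 (by omega)
  rw [alt_eq h5, two_mul_nat_card_alternatingGroup, Nat.card_perm]

theorem alt_le_of_index (h5 : 5 ≤ Nat.card α) {H : Subgroup (Equiv.Perm α)} (hH : H.index ≤ 2) :
    alt α ≤ H := by
  classical
  haveI := Fintype.ofFinite α
  rw [alt_eq h5]
  exact Equiv.Perm.alternatingGroup_le_of_index_le_two hH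

theorem exists_avoid (h5 : 5 ≤ Nat.card α) (u v w t : α) :
    ∃ z : α, z ≠ u ∧ z ≠ v ∧ z ≠ w ∧ z ≠ t := by
  classical
  haveI := Fintype.ofFinite α
  by_contra! h
  have hs : (Finset.univ : Finset α) ⊆ {u, v, w, t} := fun z _ => by
    simp only [Finset.mem_insert, Finset.mem_singleton]
    by_cases h1 : z = u
    · exact Or.inl h1
    by_cases h2 : z = v
    · exact Or.inr (Or.inl h2)
    by_cases h3 : z = w
    · exact Or.inr (Or.inr (Or.inl h3))
    exact Or.inr (Or.inr (Or.inr (h z h1 h2 h3)))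
  have h1 := Finset.card_le_card hs
  have h2 : ({u, v, w, t} : Finset α).card ≤ 4 := Finset.card_le_four
  rw [Finset.card_univ, ← Nat.card_eq_fintype_card] at h1
  omega

theorem swap_mul_swap_mem_alt (h5 : 5 ≤ Nat.card α) [DecidableEq α] {u v w t : α} (h1 : u ≠ v)
    (h2 : w ≠ t) : Equiv.swap u v * Equiv.swap w t ∈ alt α := by
  haveI := Fintype.ofFinite α
  rw [alt_eq h5]
  exact Equiv.Perm.mul_mem_alternatingGroup_of_isSwap ⟨u, v, h1, rfl⟩ ⟨w, t, h2, rfl⟩

theorem alt_two_transitive (h5 : 5 ≤ Nat.card α) {i j k : α} (hj : j ≠ i) (hk : k ≠ i) :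
    ∃ σ ∈ alt α, σ i = i ∧ σ j = k := by
  classical
  by_cases hjk : j = k
  · exact ⟨1, one_mem _, rfl, hjk⟩
  obtain ⟨u, hu1, hu2, hu3, -⟩ := exists_avoid h5 i j k k
  obtain ⟨v, hv1, hv2, hv3, hv4⟩ := exists_avoid h5 i j k u
  refine ⟨Equiv.swap j k * Equiv.swap u v, swap_mul_swap_mem_alt h5 hjk (Ne.symm hv4), ?_, ?_⟩
  · rw [Equiv.Perm.mul_apply, Equiv.swap_apply_of_ne_of_ne hu1.symm hv1.symm,
      Equiv.swap_apply_of_ne_of_ne hj.symm hk.symm]
  · rw [Equiv.Perm.mul_apply, Equiv.swap_apply_of_ne_of_ne hu2.symm hv2.symm,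
      Equiv.swap_apply_left]

/-- The alternating group has trivial centraliser in the symmetric group. -/
theorem eq_one_of_commute_alt (h5 : 5 ≤ Nat.card α) {σ : Equiv.Perm α}
    (h : ∀ τ ∈ alt α, σ * τ = τ * σ) : σ = 1 := by
  classical
  ext x
  by_contra hx
  rw [Equiv.Perm.one_apply] at hx
  obtain ⟨z, hz1, hz2, -, -⟩ := exists_avoid h5 x (σ x) x x
  obtain ⟨w, hw1, hw2, hw3, -⟩ := exists_avoid h5 x (σ x) z z
  have h1 := congrArg (fun f : Equiv.Perm α => f x)
    (h _ (swap_mul_swap_mem_alt h5 (u := σ x) (v := z) (w := σ x) (t := w) hz2.symm hw2.symm))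
  simp only [Equiv.Perm.mul_apply] at h1
  rw [Equiv.swap_apply_of_ne_of_ne (Ne.symm hx) hw1.symm,
    Equiv.swap_apply_of_ne_of_ne (Ne.symm hx) hz1.symm, Equiv.swap_apply_left,
    Equiv.swap_apply_of_ne_of_ne hw2 hw3] at h1
  exact hw2 h1.symm

theorem alt_ne_bot (h5 : 5 ≤ Nat.card α) : alt α ≠ ⊥ := by
  intro h
  have h1 := two_mul_card_alt h5
  rw [h, Subgroup.card_bot] at h1
  have := Nat.self_le_factorial (Nat.card α)
  omega

/-- A non-trivial subgroup normalised by the alternating group contains it. -/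
theorem alt_le_of_normalized (h5 : 5 ≤ Nat.card α) {M : Subgroup (Equiv.Perm α)} (hM : M ≠ ⊥)
    (hn : ∀ a ∈ alt α, ∀ m ∈ M, a * m * a⁻¹ ∈ M) : alt α ≤ M := by
  haveI := alt_simple h5
  haveI : (M.subgroupOf (alt α)).Normal := ⟨fun m hm a => hn a a.2 m hm⟩
  rcases this.eq_bot_or_eq_top with h | h
  · refine absurd ((Subgroup.eq_bot_iff_forall M).2 fun m hm => ?_) hM
    refine eq_one_of_commute_alt h5 fun a ha => ?_
    have h1 : a * m * a⁻¹ * m⁻¹ ∈ M := M.mul_mem (hn a ha m hm) (M.inv_mem hm)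
    have h2 : a * m * a⁻¹ * m⁻¹ ∈ alt α := by
      rw [mul_assoc a m, mul_assoc]
      exact (alt α).mul_mem ha
        ((inferInstance : (alt α).Normal).conj_mem a⁻¹ ((alt α).inv_mem ha) m)
    have h3 : (⟨_, h2⟩ : alt α) ∈ M.subgroupOf (alt α) := h1
    rw [h, Subgroup.mem_bot, Subtype.ext_iff] at h3
    exact (mul_inv_eq_iff_eq_mul.1 (mul_inv_eq_one.1 h3)).symm
  · exact Subgroup.subgroupOf_eq_top.1 h

theorem not_isPGroup_alt (h5 : 5 ≤ Nat.card α) {p : ℕ} [Fact p.Prime] :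
    ¬ IsPGroup p (alt α) := by
  intro hp
  haveI := hp.isNilpotent
  haveI := alt_simple h5
  haveI : Nontrivial (alt α) := IsSimpleGroup.toNontrivial
  haveI := hp.center_nontrivial
  rcases (inferInstance : (Subgroup.center (alt α)).Normal).eq_bot_or_eq_top with h | h
  · exact (Subgroup.nontrivial_iff_ne_bot _).1 inferInstance h
  · refine alt_ne_bot h5 ((Subgroup.eq_bot_iff_forall _).2 fun x hx => ?_)
    refine eq_one_of_commute_alt h5 fun y hy => ?_
    have h1 : (⟨y, hy⟩ : alt α) ∈ Subgroup.center (alt α) := h ▸ Subgroup.mem_top _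
    exact congrArg Subtype.val (Subgroup.mem_center_iff.1 h1 ⟨x, hx⟩)

theorem map_alt {β : Type*} (e : Equiv.Perm α ≃* Equiv.Perm β) :
    (alt α).map e.toMonoidHom = alt β := by
  rw [alt, alt, commutator_def, commutator_def, Subgroup.map_commutator,
    Subgroup.map_top_of_surjective _ e.surjective]

end Perm

section Img

variable {G H : Type*} [Group G] [Group H]

/-- The image of `M ⊓ T` under a homomorphism defined on `T`. -/
def img {T : Subgroup G} (f : T →* H) (M : Subgroup G) : Subgroup H := (M.subgroupOf T).map f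

theorem mem_img {T : Subgroup G} {f : T →* H} {M : Subgroup G} {h : H} :
    h ∈ img f M ↔ ∃ (x : G) (hx : x ∈ T), x ∈ M ∧ f ⟨x, hx⟩ = h := by
  constructor
  · rintro ⟨⟨x, hx⟩, hxM, rfl⟩
    exact ⟨x, hx, hxM, rfl⟩
  · rintro ⟨x, hx, hxM, rfl⟩
    exact ⟨⟨x, hx⟩, hxM, rfl⟩

theorem img_mono {T : Subgroup G} {f : T →* H} {M N : Subgroup G} (h : M ≤ N) :
    img f M ≤ img f N := by
  intro x hx
  obtain ⟨y, hy, hyM, rfl⟩ := mem_img.1 hx
  exact mem_img.2 ⟨y, hy, h hyM, rfl⟩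

theorem img_self {T : Subgroup G} (f : T →* H) : img f T = f.range := by
  rw [img, Subgroup.subgroupOf_self, ← MonoidHom.range_eq_map]

theorem img_eq_bot {T : Subgroup G} {f : T →* H} {M : Subgroup G} :
    img f M = ⊥ ↔ ∀ x (hx : x ∈ T), x ∈ M → f ⟨x, hx⟩ = 1 := by
  rw [Subgroup.eq_bot_iff_forall]
  exact ⟨fun h x hx hxM => h _ (mem_img.2 ⟨x, hx, hxM, rfl⟩), fun h y hy => by
    obtain ⟨x, hx, hxM, rfl⟩ := mem_img.1 hy
    exact h x hx hxM⟩

theorem img_inf {T : Subgroup G} {f : T →* H} {Q : Subgroup H} (hQ : ⁅Q, Q⁆ = Q)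
    {M N : Subgroup G} (hMN : M ≤ Subgroup.normalizer (N : Set G))
    (hNM : N ≤ Subgroup.normalizer (M : Set G)) (hM : Q ≤ img f M) (hN : Q ≤ img f N) :
    Q ≤ img f (M ⊓ N) := by
  rw [← hQ, Subgroup.commutator_le]
  intro a ha b hb
  obtain ⟨m, hmT, hm, rfl⟩ := mem_img.1 (hM ha)
  obtain ⟨n, hnT, hn, rfl⟩ := mem_img.1 (hN hb)
  refine mem_img.2 ⟨m * n * m⁻¹ * n⁻¹, T.mul_mem (T.mul_mem (T.mul_mem hmT hnT)
    (T.inv_mem hmT)) (T.inv_mem hnT), ⟨?_, ?_⟩, ?_⟩
  · rw [mul_assoc m n, mul_assoc]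
    exact M.mul_mem hm ((Subgroup.mem_normalizer_iff.1 (hNM hn) _).1 (M.inv_mem hm))
  · exact N.mul_mem ((Subgroup.mem_normalizer_iff.1 (hMN hm) _).1 hn) (N.inv_mem hn)
  · rw [commutatorElement_def, ← map_inv, ← map_inv, ← map_mul, ← map_mul, ← map_mul]
    rfl

theorem normalizes_inf {X M N : Subgroup G} (hM : X ≤ Subgroup.normalizer (M : Set G))
    (hN : X ≤ Subgroup.normalizer (N : Set G)) :
    X ≤ Subgroup.normalizer ((M ⊓ N : Subgroup G) : Set G) := fun x hx =>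
  Subgroup.mem_normalizer_iff.2 fun y => and_congr (Subgroup.mem_normalizer_iff.1 (hM hx) y)
    (Subgroup.mem_normalizer_iff.1 (hN hx) y)

theorem img_biInf {T : Subgroup G} {f : T →* H} {Q : Subgroup H} (hQ : ⁅Q, Q⁆ = Q)
    {ι : Type*} (s : Finset ι) (M : ι → Subgroup G) {X : Subgroup G} (hX : Q ≤ img f X)
    (hn : ∀ i ∈ s, X ≤ Subgroup.normalizer (M i : Set G))
    (hM : ∀ i ∈ s, Q ≤ img f (X ⊓ M i)) : Q ≤ img f (X ⊓ ⨅ i ∈ s, M i) := by
  classical
  suffices h : Q ≤ img f (X ⊓ ⨅ i ∈ s, M i) ∧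
      X ≤ Subgroup.normalizer ((X ⊓ ⨅ i ∈ s, M i : Subgroup G) : Set G) from h.1
  induction s using Finset.induction with
  | empty =>
    simp only [Finset.notMem_empty, iInf_false, iInf_top, inf_top_eq]
    exact ⟨hX, Subgroup.le_normalizer⟩
  | insert i s his ih =>
    obtain ⟨h1, h2⟩ := ih (fun j hj => hn j (Finset.mem_insert_of_mem hj))
      (fun j hj => hM j (Finset.mem_insert_of_mem hj))
    have h3 : X ≤ Subgroup.normalizer ((X ⊓ M i : Subgroup G) : Set G) :=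
      normalizes_inf Subgroup.le_normalizer (hn i (Finset.mem_insert_self i s))
    rw [Finset.iInf_insert, inf_inf_distrib_left]
    exact ⟨img_inf hQ (inf_le_left.trans h2) (inf_le_left.trans h3)
      (hM i (Finset.mem_insert_self i s)) h1, normalizes_inf h3 h2⟩

theorem img_small {T : Subgroup G} {f : T →* H} {Q : Subgroup H} [Finite G] [IsSimpleGroup Q]
    {M X : Subgroup G} (hXT : X ≤ T) (hn : X ≤ Subgroup.normalizer (M : Set G))
    (hX : Q ≤ img f X) (hlt : M.relIndex X < Nat.card Q) : Q ≤ img f (X ⊓ M) := by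
  haveI : ((img f (X ⊓ M)).subgroupOf Q).Normal := by
    refine ⟨fun y hy q => ?_⟩
    obtain ⟨x, hxT, hx, hxq⟩ := mem_img.1 (hX q.2)
    obtain ⟨m, hmT, hm, hmy⟩ := mem_img.1 hy
    refine mem_img.2 ⟨x * m * x⁻¹, T.mul_mem (T.mul_mem hxT hmT) (T.inv_mem hxT),
      ⟨X.mul_mem (X.mul_mem hx hm.1) (X.inv_mem hx),
        (Subgroup.mem_normalizer_iff.1 (hn hx) m).1 hm.2⟩, ?_⟩
    show f (⟨x, hxT⟩ * ⟨m, hmT⟩ * (⟨x, hxT⟩)⁻¹) = _
    rw [map_mul, map_mul, map_inv, hxq, hmy]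
    rfl
  rcases this.eq_bot_or_eq_top with h | h
  · exfalso
    have hex : ∀ q : Q, ∃ x : X, f ⟨x, hXT x.2⟩ = (q : H) := by
      intro q
      obtain ⟨x, hxT, hx, hxq⟩ := mem_img.1 (hX q.2)
      exact ⟨⟨x, hx⟩, hxq⟩
    choose r hr using hex
    refine not_le.2 hlt (Nat.card_le_card_of_injective
      (fun q => (r q : X ⧸ M.subgroupOf X)) fun q q' hqq => ?_)
    have h1 : ((r q)⁻¹ * r q' : X) ∈ M.subgroupOf X := QuotientGroup.eq.1 hqq
    have h2 : q⁻¹ * q' ∈ (img f (X ⊓ M)).subgroupOf Q := by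
      refine mem_img.2 ⟨((r q)⁻¹ * r q' : X), hXT ((r q)⁻¹ * r q').2,
        ⟨((r q)⁻¹ * r q').2, h1⟩, ?_⟩
      show f ((⟨r q, hXT (r q).2⟩ : T)⁻¹ * ⟨r q', hXT (r q').2⟩) = _
      rw [map_mul, map_inv, hr, hr]
      rfl
    rw [h, Subgroup.mem_bot, inv_mul_eq_one] at h2
    exact h2
  · exact Subgroup.subgroupOf_eq_top.1 h

end Img

end CfsgLib.Suborbit
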